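import Mathlib
import Cfsg.Agent.Lib.SL2Elt.Order
import Cfsg.Agent.Lib.QF.Classify
import Cfsg.Agent.Lib.Orth12.Plane

/-! The factorisation `SL(2, q) = A B A` in characteristic two. -/

set_option autoImplicit false

open Matrix H12
open scoped MatrixGroups

namespace H64.SL2

variable {F : Type*} [Field F]

/-- The non-split torus. -/
def torHom (δ : F) : H12.normOne 1 δ →* SL(2, F) where
  toFun u := mk u.1.1.re (-δ * u.1.1.im) u.1.1.im (u.1.1.re + u.1.1.im) (by
    have := H12.mem_normOne.1 u.2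
    rw [QuadraticAlgebra.norm_def] at this
    linear_combination this)
  map_one' := by simp [ent, QuadraticAlgebra.re_one, QuadraticAlgebra.im_one]
  map_mul' u v := by
    simp only [ent, Subgroup.coe_mul, Units.val_mul, QuadraticAlgebra.re_mul, QuadraticAlgebra.im_mul]
    refine ⟨trivial, by ring, by ring, by ring⟩

/-- The root subgroup. -/
def rootHom : Multiplicative F →* SL(2, F) where
  toFun t := mk 1 t.toAdd 0 1 (by ring)
  map_one' := by simp [ent]
  map_mul' u v := by simp [ent, add_comm]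

theorem exists_aba [Finite F] (h2 : (2 : F) = 0) {δ : F} (hδ : Aniso 1 δ) (g : SL(2, F)) :
    ∃ u t v, g = torHom δ u * rootHom t * torHom δ v := by
  have := hδ.fact
  have := finite_KA 1 δ
  have key : ∀ (α : KA 1 δ) (t : F), α.norm = t ^ 2 → ∃ r : KA 1 δ, r.norm = 1 ∧ α = t • r :=
    fun α t h => by
      by_cases ht : t = 0
      · exact ⟨1, map_one _, by
          simpa [ht, QuadraticAlgebra.norm_eq_zero_iff_eq_zero] using h⟩
      · refine ⟨t⁻¹ • α, ?_, by simp [ht]⟩
        rw [Algebra.smul_def, map_mul, QuadraticAlgebra.norm_algebraMap, h]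
        field_simp
  have hg := det_eq g
  obtain ⟨t, ht⟩ := H12.exists_sq_eq_of_two_eq_zero h2 (QuadraticAlgebra.norm
    (⟨g 0 1 + δ * g 1 0, g 1 0 + g 0 0 + g 1 1⟩ : KA 1 δ))
  obtain ⟨s, hs, hs'⟩ := key _ t ht.symm
  obtain ⟨r, hr, hr'⟩ := key ⟨g 0 0 + g 0 1 + δ * g 1 0, g 0 0 + g 1 1⟩ (1 + t) (by
    simp only [QuadraticAlgebra.norm_def] at ht ⊢
    grind)
  obtain ⟨u, hu⟩ := H12.exists_sq_eq_of_two_eq_zero (F := KA 1 δ)
    (by rw [← map_ofNat (algebraMap F _), h2, map_zero]) (r * s)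
  have h1 : u.norm = 1 := by
    have := congrArg QuadraticAlgebra.norm hu
    rw [map_pow, map_mul, hr, hs] at this
    grind
  have h3 : ∀ z : KA 1 δ, z.norm = 1 → z * star z = 1 := fun z h => by
    rw [← QuadraticAlgebra.algebraMap_norm_eq_mul_star, h, map_one]
  have h4 : u * (r * star u) = r := by rw [mul_left_comm, h3 u h1, mul_one]
  have h5 : u * star (r * star u) = s := by
    rw [star_mul, star_star, ← mul_assoc, ← _root_.sq, hu, mul_right_comm, h3 r hr, one_mul]
  have h6 : (r * star u).norm = 1 := by rw [map_mul, QuadraticAlgebra.norm_star, hr, h1, one_mul]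
  generalize r * star u = v at h4 h5 h6
  subst h4 h5
  refine ⟨⟨.mk0 u (by rintro rfl; simp at h1), H12.mem_normOne.2 h1⟩, .ofAdd t,
    ⟨.mk0 v (by rintro rfl; simp at h6), H12.mem_normOne.2 h6⟩, ?_⟩
  simp only [QuadraticAlgebra.ext_iff, QuadraticAlgebra.re_smul, QuadraticAlgebra.im_smul,
    QuadraticAlgebra.re_mul, QuadraticAlgebra.im_mul, QuadraticAlgebra.re_star,
    QuadraticAlgebra.im_star, smul_eq_mul] at hs' hr'
  simp only [ent, torHom, rootHom, MonoidHom.coe_mk, OneHom.coe_mk, Units.val_mk0, toAdd_ofAdd]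
  obtain ⟨a1, a2⟩ := hs'
  obtain ⟨a3, a4⟩ := hr'
  generalize g 0 0 = a, g 0 1 = b, g 1 0 = c, g 1 1 = d, u.re = x, u.im = y, v.re = z, v.im = w at *
  clear * - a1 a2 a3 a4 h2
  refine ⟨?_, ?_, ?_, ?_⟩ <;> grind

theorem psl_aba [Fintype F] (h : 2 ∣ Fintype.card F) : ∃ A B : Subgroup PSL(2, F),
    IsCyclic A ∧ Nat.card A = Fintype.card F + 1 ∧ IsMulCommutative B ∧ (∀ b ∈ B, b * b = 1) ∧
      Nat.card B = Fintype.card F ∧ ∀ g, ∃ a ∈ A, ∃ b ∈ B, ∃ c ∈ A, g = a * b * c := by
  have h2 := two_eq_zero_of_even h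
  obtain ⟨δ, hδ⟩ : ∃ δ : F, Aniso 1 δ := H66.exists_aniso
  have := hδ.fact
  have := finite_KA 1 δ
  have h1 : Function.Injective (proj.comp (torHom δ)) :=
    (proj_injective_of_two_eq_zero h2).comp fun u v e => by
      simp only [ent, torHom, MonoidHom.coe_mk, OneHom.coe_mk] at e
      exact Subtype.ext (Units.ext (QuadraticAlgebra.ext e.1 e.2.2.1))
  have h3 : Function.Injective (proj.comp (rootHom (F := F))) :=
    (proj_injective_of_two_eq_zero h2).comp fun u v e => by
      simpa [ent, rootHom] using e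
  refine ⟨(proj.comp (torHom δ)).range, (proj.comp rootHom).range,
    isCyclic_of_surjective _ (MonoidHom.rangeRestrict_surjective _), ?_, inferInstance, ?_, ?_,
    fun g => ?_⟩
  · rw [← Nat.card_congr (MonoidHom.ofInjective h1).toEquiv, hδ.card_normOne, Nat.card_eq_fintype_card]
  · rintro _ ⟨t, rfl⟩
    rw [← map_mul, show t * t = 1 from Multiplicative.toAdd.injective (by
      simp [← two_mul, h2]), map_one]
  · rw [← Nat.card_congr (MonoidHom.ofInjective h3).toEquiv]; simp
  · obtain ⟨g, rfl⟩ := proj_surjective g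
    obtain ⟨u, t, v, rfl⟩ := exists_aba h2 hδ g
    exact ⟨_, ⟨u, rfl⟩, _, ⟨t, rfl⟩, _, ⟨v, rfl⟩, by simp⟩

end H64.SL2
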