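import Mathlib

set_option autoImplicit false

open scoped Pointwise

namespace H64.Mers

variable {F : Type*} [Field F]

/-- the standard element of order four -/
def J (F : Type*) [Field F] : Matrix (Fin 2) (Fin 2) F := !![0, -1; 1, 0]

lemma J_mul_J : J F * J F = -1 := by
  ext i j; fin_cases i <;> fin_cases j <;> simp [J, Matrix.mul_apply, Fin.sum_univ_two]

/-- elements commuting or anticommuting with `J` -/
def S (F : Type*) [Field F] : Subgroup (GL (Fin 2) F) where
  carrier := {g | g.val * J F = J F * g.val ∨ g.val * J F = -(J F * g.val)}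
  one_mem' := Or.inl (by simp)
  mul_mem' := by
    intro a b ha hb
    simp only [Set.mem_setOf_eq, Units.val_mul] at *
    rcases ha with ha | ha <;> rcases hb with hb | hb
    · left; rw [mul_assoc, hb, ← mul_assoc, ha, mul_assoc]
    · right; rw [mul_assoc, hb, mul_neg, ← mul_assoc, ha, mul_assoc]
    · right; rw [mul_assoc, hb, ← mul_assoc, ha, neg_mul, mul_assoc]
    · left; rw [mul_assoc, hb, mul_neg, ← mul_assoc, ha, neg_mul, neg_neg, mul_assoc]
  inv_mem' := by
    intro a ha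
    simp only [Set.mem_setOf_eq] at *
    have h1 : (a⁻¹).val * a.val = 1 := a.inv_mul
    have h2 : a.val * (a⁻¹).val = 1 := a.mul_inv
    rcases ha with ha | ha
    · left
      calc (a⁻¹).val * J F = (a⁻¹).val * (J F * a.val) * (a⁻¹).val := by
            rw [mul_assoc, mul_assoc, h2, mul_one]
        _ = J F * (a⁻¹).val := by rw [← ha, ← mul_assoc, h1, one_mul]
    · right
      calc (a⁻¹).val * J F = (a⁻¹).val * (J F * a.val) * (a⁻¹).val := by
            rw [mul_assoc, mul_assoc, h2, mul_one]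
        _ = -(J F * (a⁻¹).val) := by
            rw [← neg_neg (J F * a.val), ← ha, mul_neg, ← mul_assoc, h1, one_mul, neg_mul]

lemma comm_J {A : Matrix (Fin 2) (Fin 2) F} (h : A * J F = J F * A) :
    A = (A 0 0) • (1 : Matrix (Fin 2) (Fin 2) F) + (A 1 0) • J F := by
  have h00 := congrFun (congrFun h 0) 0
  have h01 := congrFun (congrFun h 0) 1
  simp [J, Matrix.mul_apply, Fin.sum_univ_two] at h00 h01
  ext i j; fin_cases i <;> fin_cases j <;> simp [J, h00, h01]

lemma anti_zero (hns : ∀ a : F, a ^ 2 ≠ -1) {K : Matrix (Fin 2) (Fin 2) F}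
    (hKJ : K * J F = -(J F * K)) (hd : K.det = 0) : K = 0 := by
  have h00 : K 0 1 = K 1 0 := by
    have := congrFun (congrFun hKJ 0) 0
    simpa [J, Matrix.mul_apply, Fin.sum_univ_two, Matrix.vecMul, dotProduct] using this
  have h01 : K 1 1 = - K 0 0 := by
    have := congrFun (congrFun hKJ 0) 1
    simp [J, Matrix.mul_apply, Fin.sum_univ_two, Matrix.vecMul, dotProduct] at this
    linear_combination -this
  rw [Matrix.det_fin_two, h01, ← h00] at hd
  have ha : K 0 0 = 0 := by
    by_contra ha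
    apply hns (K 0 1 / K 0 0)
    field_simp
    linear_combination -hd
  have hb : K 0 1 = 0 := by
    rw [ha] at hd
    simpa using hd
  ext i j; fin_cases i <;> fin_cases j
  · exact ha
  · exact hb
  · simpa [hb] using h00.symm
  · simpa [ha] using h01

lemma pow_scalar {q : ℕ} [Fact q.Prime] (h4 : q % 4 = 3) (A : Matrix (Fin 2) (Fin 2) (ZMod q))
    (h : A * J (ZMod q) = J (ZMod q) * A) :
    ∃ c : ZMod q, A ^ (q + 1) = c • (1 : Matrix (Fin 2) (Fin 2) (ZMod q)) := by
  rw [comm_J h]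
  generalize A 0 0 = a
  generalize A 1 0 = b
  haveI : CharP (Matrix (Fin 2) (Fin 2) (ZMod q)) q := Matrix.charP q
  have hc : Commute (a • (1 : Matrix (Fin 2) (Fin 2) (ZMod q))) (b • J (ZMod q)) := by
    simp [Commute, SemiconjBy, smul_smul, mul_comm]
  have hJ : J (ZMod q) ^ q = -J (ZMod q) := by
    have hq : q = 2 * (2 * (q / 4) + 1) + 1 := by omega
    have : J (ZMod q) ^ (2 * (2 * (q / 4) + 1) + 1) = -J (ZMod q) := by
      rw [pow_succ, pow_mul, sq, J_mul_J, Odd.neg_one_pow ⟨q / 4, rfl⟩, neg_mul, one_mul]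
    rw [← this, ← hq]
  refine ⟨a ^ 2 + b ^ 2, ?_⟩
  rw [pow_succ, add_pow_char_of_commute _ hc, smul_pow, smul_pow, one_pow, ZMod.pow_card,
    ZMod.pow_card, hJ]
  simp only [add_mul, mul_add, smul_mul_assoc, mul_smul_comm, one_mul, mul_one, neg_mul, J_mul_J,
    smul_neg, neg_neg, smul_smul]
  module

lemma mem_center_of_scalar (g : GL (Fin 2) F) (c : F)
    (h : g.val = c • (1 : Matrix (Fin 2) (Fin 2) F)) : g ∈ Subgroup.center (GL (Fin 2) F) := by
  rw [Subgroup.mem_center_iff]
  intro a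
  ext1
  simp [h]

lemma isPGroup_S {q k : ℕ} [Fact q.Prime] (hk : q + 1 = 2 ^ k) (h4 : q % 4 = 3) :
    IsPGroup 2 ((S (ZMod q)).map
      (QuotientGroup.mk' (Subgroup.center (GL (Fin 2) (ZMod q))))) := by
  rintro ⟨gb, hgb⟩
  refine ⟨k + 1, Subtype.ext ?_⟩
  change gb ^ 2 ^ (k + 1) = 1
  obtain ⟨g, hg, rfl⟩ := hgb
  rw [← map_pow, QuotientGroup.mk'_apply, QuotientGroup.eq_one_iff]
  have h2 : (g ^ 2).val * J (ZMod q) = J (ZMod q) * (g ^ 2).val := by
    have hg' : g.val * J (ZMod q) = J (ZMod q) * g.val ∨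
      g.val * J (ZMod q) = -(J (ZMod q) * g.val) := hg
    rw [sq, Units.val_mul]
    rcases hg' with h | h
    · rw [mul_assoc, h, ← mul_assoc, h, mul_assoc]
    · rw [mul_assoc, h, mul_neg, ← mul_assoc, h, neg_mul, neg_neg, mul_assoc]
  obtain ⟨c, hc⟩ := pow_scalar h4 _ h2
  refine mem_center_of_scalar _ c ?_
  rw [← hc, hk, ← Units.val_pow_eq_pow_val, ← pow_mul, pow_succ']

/-- the key fact: two conjugates of `S` share a non-central element. -/
lemma exists_common (hns : ∀ a : F, a ^ 2 ≠ -1) (w : GL (Fin 2) F) :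
    ∃ K : GL (Fin 2) F, K ∉ Subgroup.center (GL (Fin 2) F) ∧ K ∈ S F ∧ w⁻¹ * K * w ∈ S F := by
  have h1 : (w⁻¹).val * w.val = 1 := w.inv_mul
  have h2 : w.val * (w⁻¹).val = 1 := w.mul_inv
  set J' : Matrix (Fin 2) (Fin 2) F := w.val * J F * (w⁻¹).val with hJ'
  have hJJ : J' * J' = -1 := by
    calc J' * J' = w.val * (J F * ((w⁻¹).val * w.val) * J F) * (w⁻¹).val := by
          simp only [hJ', mul_assoc]
      _ = -1 := by rw [h1, mul_one, J_mul_J, mul_neg, mul_one, neg_mul, h2]
  have hback : ∀ K : GL (Fin 2) F, (K.val * J' = J' * K.val ∨ K.val * J' = -(J' * K.val)) →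
      w⁻¹ * K * w ∈ S F := by
    intro K hK
    have e1 : (w⁻¹ * K * w).val * J F = (w⁻¹).val * (K.val * J') * w.val := by
      simp only [Units.val_mul, hJ', mul_assoc, h1, mul_one]
    have e2 : J F * (w⁻¹ * K * w).val = (w⁻¹).val * (J' * K.val) * w.val := by
      simp only [Units.val_mul, hJ', ← mul_assoc, h1, one_mul]
    change (w⁻¹ * K * w).val * J F = J F * (w⁻¹ * K * w).val ∨
      (w⁻¹ * K * w).val * J F = -(J F * (w⁻¹ * K * w).val)
    rw [e1, e2]
    rcases hK with h | h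
    · left; rw [h]
    · right; rw [h, mul_neg, neg_mul]
  have h2ne : (2 : F) ≠ 0 := by
    intro h
    apply hns 1
    linear_combination h
  have hJdet : (J F).det ≠ 0 := by simp [J, Matrix.det_fin_two]
  let Ju : GL (Fin 2) F := Matrix.GeneralLinearGroup.mkOfDetNeZero _ hJdet
  have hJu : Ju.val = J F := rfl
  set K : Matrix (Fin 2) (Fin 2) F := J F * J' - J' * J F with hK
  have hKJ : K * J F = -(J F * K) := by
    rw [hK, sub_mul, mul_sub, mul_assoc J', J_mul_J, ← mul_assoc (J F) (J F), J_mul_J]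
    simp only [mul_assoc, mul_neg, mul_one, neg_mul, one_mul]
    abel
  have hKJ' : K * J' = -(J' * K) := by
    rw [hK, sub_mul, mul_sub, mul_assoc (J F), hJJ, ← mul_assoc J' J', hJJ]
    simp only [mul_assoc, mul_neg, mul_one, neg_mul, one_mul]
    abel
  by_cases hd : K.det = 0
  · -- then `K = 0`
    have hK0 : K = 0 := by
      exact anti_zero hns hKJ hd
    refine ⟨Ju, ?_, Or.inl rfl, hback _ (Or.inl ?_)⟩
    · intro hc
      have hU : (!![1, 1; 0, 1] : Matrix (Fin 2) (Fin 2) F).det ≠ 0 := by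
        simp [Matrix.det_fin_two]
      have := Subgroup.mem_center_iff.1 hc (Matrix.GeneralLinearGroup.mkOfDetNeZero _ hU)
      have h3' : (!![1, 1; 0, 1] : Matrix (Fin 2) (Fin 2) F) * J F = J F * !![1, 1; 0, 1] :=
        congrArg Units.val this
      have h3 := congrFun (congrFun h3' 0) 0
      simp [J, Matrix.mul_apply, Fin.sum_univ_two] at h3
    · rw [hJu]; exact sub_eq_zero.1 hK0
  · let Ku : GL (Fin 2) F := Matrix.GeneralLinearGroup.mkOfDetNeZero _ hd
    have hKu : Ku.val = K := rfl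
    refine ⟨Ku, ?_, Or.inr hKJ, hback _ (Or.inr hKJ')⟩
    intro hc
    have := congrArg Units.val (Subgroup.mem_center_iff.1 hc Ju)
    simp only [Units.val_mul, hJu, hKu] at this
    rw [hKJ] at this
    have h0 : (2 : F) • (J F * K) = 0 := by
      rw [two_smul]; exact add_eq_zero_iff_eq_neg.2 this
    rcases smul_eq_zero.1 h0 with h | h
    · exact h2ne h
    · have := congrArg Matrix.det h
      rw [Matrix.det_mul, Matrix.det_zero] at this
      rcases mul_eq_zero.1 this with h | h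
      · exact hJdet h
      · exact hd h

theorem main {q k : ℕ} [Fact q.Prime] (hk : q + 1 = 2 ^ k) (hq : 7 ≤ q)
    (H : Sylow 2 (GL (Fin 2) (ZMod q) ⧸ Subgroup.center (GL (Fin 2) (ZMod q))))
    (x : GL (Fin 2) (ZMod q) ⧸ Subgroup.center (GL (Fin 2) (ZMod q))) :
    (H : Subgroup (GL (Fin 2) (ZMod q) ⧸ Subgroup.center (GL (Fin 2) (ZMod q)))) ⊓
      MulAut.conj x • (H : Subgroup _) ≠ ⊥ := by
  have h4 : q % 4 = 3 := by
    have hk2 : 2 ≤ k := by
      by_contra h
      interval_cases k <;> omega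
    obtain ⟨m, rfl⟩ := Nat.exists_eq_add_of_le hk2
    rw [pow_add] at hk
    omega
  have hns : ∀ a : ZMod q, a ^ 2 ≠ -1 := fun a => ZMod.mod_four_ne_three_of_sq_eq_neg_one.mt
    (by simp [h4])
  obtain ⟨P, hP⟩ := (isPGroup_S hk h4).exists_le_sylow
  obtain ⟨y, rfl⟩ := MulAction.exists_smul_eq
    (GL (Fin 2) (ZMod q) ⧸ Subgroup.center (GL (Fin 2) (ZMod q))) P H
  obtain ⟨w, hw⟩ := QuotientGroup.mk'_surjective _ (y⁻¹ * x * y)
  obtain ⟨K, hKc, hK1, hK2⟩ := exists_common hns w
  intro hbot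
  have m1 := hP (Subgroup.mem_map_of_mem (QuotientGroup.mk' _) hK1)
  have m2 := hP (Subgroup.mem_map_of_mem (QuotientGroup.mk' _) hK2)
  rw [map_mul, map_mul, map_inv, hw] at m2
  set Kb := QuotientGroup.mk' (Subgroup.center (GL (Fin 2) (ZMod q))) K with hKb
  have hmem : y * Kb * y⁻¹ ∈ ((y • P : Sylow 2 _) : Subgroup _) ⊓
      MulAut.conj x • ((y • P : Sylow 2 _) : Subgroup _) := by
    rw [Sylow.coe_subgroup_smul, Subgroup.mem_inf]
    constructor
    · rw [Subgroup.mem_pointwise_smul_iff_inv_smul_mem]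
      convert m1 using 1
      simp [mul_assoc]
    · rw [Subgroup.mem_pointwise_smul_iff_inv_smul_mem,
        Subgroup.mem_pointwise_smul_iff_inv_smul_mem]
      convert m2 using 1
      simp [mul_assoc]
  rw [hbot, Subgroup.mem_bot] at hmem
  have : Kb = 1 := by
    have := congrArg (fun z => y⁻¹ * z * y) hmem
    simpa [mul_assoc] using this
  rw [hKb, QuotientGroup.mk'_apply, QuotientGroup.eq_one_iff] at this
  exact hKc this

end H64.Mers
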